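import Cfsg.Agent.LS.Aut
import Cfsg.Agent.LG.Defs

/-! Standard subgroups that cover `L₃(4)` or `G₂(4)`: vocabulary (notes/LX.md). -/

set_option autoImplicit false

namespace Cfsg.Agent.LX

open Subgroup
open scoped commutatorElement

variable {M P G : Type*} [Group M] [Group P] [Group G]

/-- `M` is perfect and `σ` identifies `M / Z(M)` with `P` -/
structure Cv (σ : M →* P) : Prop where
  surj : Function.Surjective σ
  ker : ∀ m, σ m = 1 ↔ m ∈ center M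
  perf : commutator M = ⊤

/-- a chosen preimage -/
noncomputable def lf (σ : M →* P) (p : P) : M := Function.invFun σ p

def tws (β : MulAut P) (σ : M →* P) : M →* P := β.toMonoidHom.comp σ

def Two (x : G) : Prop := ∃ n : ℕ, x ^ 2 ^ n = 1

/-- `C(L)` -/
abbrev Kc (ι : M →* G) : Subgroup G := centralizer (ι.range : Set G)

/-- `N(L)` -/
abbrev Nn (ι : M →* G) : Subgroup G := normalizer (ι.range : Set G)

def cj (g : G) (ι : M →* G) : M →* G := (MulAut.conj g).toMonoidHom.comp ι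

/-- `L = ι.range` is standard -/
structure Hy (ι : M →* G) : Prop where
  inj : Function.Injective ι
  ti : ∀ g, ∀ k ∈ Kc ι, k * k = 1 → k ≠ 1 → g * k * g⁻¹ ∈ Kc ι → g ∈ Nn ι
  std : ∀ g, ¬ ∀ p p', Commute (ι p) (g * ι p' * g⁻¹)
  ev : ∃ k ∈ Kc ι, k * k = 1 ∧ k ≠ 1

/-- `ι'` is a conjugate frame -/
def Fr (ι ι' : M →* G) : Prop := ∃ g, ι' = cj g ι

/-- `n ∈ L K` -/
def Inn (ι : M →* G) (n : G) : Prop := ∃ m, ∃ k ∈ Kc ι, n = ι m * k

/-- `n` normalises `L` and induces `β` on `P` -/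
def Ac (ι : M →* G) (σ : M →* P) (n : G) (β : MulAut P) : Prop :=
  ∀ m, ∃ m', n * ι m * n⁻¹ = ι m' ∧ σ m' = β (σ m)

/-- `J` is the simple generalized Fitting subgroup of `G` and contains `L` -/
structure Amb (ι : M →* G) (J : Subgroup G) : Prop where
  nrm : J.Normal
  simple : IsSimpleGroup J
  le : ι.range ≤ J
  cen : centralizer (J : Set G) = ⊥

/-- `C(L)` contains a four-group -/
def Rk (ι : M →* G) : Prop :=
  ∃ a ∈ Kc ι, ∃ b ∈ Kc ι, a * a = 1 ∧ b * b = 1 ∧ a ≠ 1 ∧ b ≠ 1 ∧ a ≠ b ∧ Commute a b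

/-- `L' ≠ L` is a conjugate and `s` is an involution of `K' ∩ N` -/
structure Pr (ι ι' : M →* G) (s : G) : Prop where
  hy : Hy ι
  fr : Fr ι ι'
  ne : ι'.range ≠ ι.range
  sK : s ∈ Kc ι'
  s2 : s * s = 1
  s1 : s ≠ 1
  sN : s ∈ Nn ι

/-- a central involution -/
def CI (t : M) : Prop := t ∈ center M ∧ t * t = 1 ∧ t ≠ 1

/-! ### covers of `L₃(4)` -/

namespace E

open LS

/-- no inner pairs -/
def NIP (ι : M →* G) : Prop := ∀ ι₁ ι₂ s, Fr ι ι₁ → Pr ι₁ ι₂ s → ¬ Inn ι₁ s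

/-- the canonical lifts of `Z(T)` -/
noncomputable def fz (σ : M →* LS.P) (c : F) : M := ⁅lf σ hh, lf σ (u 0 0 (ω * ω * c))⁆

noncomputable def ps (σ : M →* LS.P) (c : F) : M := ⁅lf σ (u 1 0 0), fz σ c⁆

/-- `ψ = 1`, free of frames -/
def Sp (M : Type*) [Group M] : Prop := ∀ m x : M, m * m = 1 → ⁅x, m⁆ ∈ center M → Commute x m

/-- the `2`-elements over `T` -/
def Th (σ : M →* LS.P) : Subgroup M := closure {x | (∃ a b c, σ x = u a b c) ∧ Two x}

def Bg (ι : M →* G) (σ : M →* LS.P) (a : G) : Subgroup G :=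
  (Th σ ⊓ centralizer {fz σ 1}).map ι ⊔ zpowers a

/-- an inner pair `s = f₁ k` with a four-group `⟨t, a⟩ ≤ C_K(s)` -/
structure IPc (ι ι' : M →* G) (σ : M →* LS.P) (s k a : G) (t : M) : Prop where
  pr : Pr ι ι' s
  cv : Cv σ
  kK : k ∈ Kc ι
  se : s = ι (fz σ 1) * k
  ct : CI t
  aK : a ∈ Kc ι
  a2 : a * a = 1
  a1 : a ≠ 1
  ne : a ≠ ι t
  as : Commute a s

/-- what an inner pair `s = ι m₀ k` says about an involution `e` of `C_K(s)` -/
structure Cov (ι ι' : M →* G) (m₀ : M) (e : G) (m' : M) : Prop where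
  sq : m' * m' = 1
  nc : m' ∉ center M
  eq : ∃ κ ∈ Kc ι', e = ι' m' * κ
  b1 : ∀ x, Commute x m₀ → ∃ x', Commute x' m' ∧ ∃ κ ∈ Kc ι', ι x = ι' x' * κ
  b2 : ∀ x', Commute x' m' → ∃ x z, Commute x m₀ ∧ (∀ y, Commute y m' → Commute y z) ∧
    ∃ κ ∈ Kc ι', ι x = ι' (x' * z) * κ

end E

/-! ### the double cover of `G₂(4)` -/

namespace D

open LG

/-- the double cover -/
structure Dc (σ : M →* LG.P) (t : M) : Prop where
  cv : Cv σ
  ne : t ≠ 1
  cen : ∀ m, m ∈ center M ↔ m = 1 ∨ m = t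

/-- the canonical lifts of the highest root group -/
noncomputable def fz (σ : M →* LG.P) (c : F) : M := ⁅lf σ hh, lf σ (xr 11 (ω * ω * c))⁆

end D

end Cfsg.Agent.LX
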